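import Mathlib
import Cfsg.Agent.Lib.FrattiniBasic

/-!
# Regular cycles: the character criterion and the commuting criterion

`G` acts on a set `Ω`.  `Reg Ω h` is the set of points on which `⟨h⟩` is regular.
`Occ Ω Q μ` : the linear character `μ` of the subgroup `Q` occurs in the permutation module,
i.e. `Q_ω ≤ ker μ` for some `ω`.
-/

set_option autoImplicit false

namespace Cfsg.Agent.H359.RC

open scoped Classical

variable {G : Type*} [Group G]

/-- The points on which the cyclic group `⟨h⟩` acts regularly. -/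
def Reg (Ω : Type*) [MulAction G Ω] (h : G) : Set Ω := {ω | ∀ k : ℕ, h ^ k • ω = ω → h ^ k = 1}

/-- `μ` occurs in the permutation module of `Q` on `Ω`. -/
def Occ (Ω : Type*) [MulAction G Ω] (Q : Subgroup G) (μ : Q →* ℂˣ) : Prop :=
  ∃ ω : Ω, ∀ q : Q, (q : G) • ω = ω → μ q = 1

/-- `x` fixes the linear character `μ` of `Q`. -/
def FixC (Q : Subgroup G) (μ : Q →* ℂˣ) (x : G) : Prop :=
  ∀ q q' : Q, (q' : G) = x * q * x⁻¹ → μ q' = μ q

theorem fixC_one (Q : Subgroup G) (μ : Q →* ℂˣ) : FixC Q μ 1 := by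
  intro q q' h
  have : q' = q := Subtype.ext (by simpa using h)
  rw [this]

theorem fixC_mul {Q : Subgroup G} {μ : Q →* ℂˣ} {x y : G} (hy : ∀ q ∈ Q, y * q * y⁻¹ ∈ Q)
    (hx : FixC Q μ x) (h : FixC Q μ y) : FixC Q μ (x * y) := by
  intro q q' e
  have h1 := h q ⟨y * q * y⁻¹, hy _ q.2⟩ rfl
  rw [← h1]
  apply hx
  rw [e]
  simp [mul_assoc]

theorem fixC_pow {Q : Subgroup G} {μ : Q →* ℂˣ} {x : G} (hx : ∀ q ∈ Q, x * q * x⁻¹ ∈ Q)
    (h : FixC Q μ x) (n : ℕ) : FixC Q μ (x ^ n) := by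
  induction n with
  | zero => simpa using fixC_one Q μ
  | succ n ih => rw [pow_succ]; exact fixC_mul hx ih h

/-- The conjugate character `q ↦ μ (x⁻¹ q x)`. -/
def conjC (Q : Subgroup G) (μ : Q →* ℂˣ) (x : G) (hx : ∀ q ∈ Q, x⁻¹ * q * x ∈ Q) : Q →* ℂˣ where
  toFun q := μ ⟨x⁻¹ * q * x, hx _ q.2⟩
  map_one' := by
    have : (⟨x⁻¹ * ((1 : Q) : G) * x, hx _ (1 : Q).2⟩ : Q) = 1 := Subtype.ext (by simp)
    rw [this, map_one]
  map_mul' a b := by
    rw [← map_mul]
    congr 1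
    exact Subtype.ext (by simp [mul_assoc])

theorem pow_conj_mem {Q : Subgroup G} {g : G} (hg : ∀ q ∈ Q, g⁻¹ * q * g ∈ Q) (i : ℕ) :
    ∀ q ∈ Q, (g ^ i)⁻¹ * q * (g ^ i) ∈ Q := by
  induction i with
  | zero => intro q hq; simpa using hq
  | succ n ih =>
    intro q hq
    have := hg _ (ih q hq)
    have e : (g ^ (n + 1))⁻¹ * q * g ^ (n + 1) = g⁻¹ * ((g ^ n)⁻¹ * q * g ^ n) * g := by
      rw [pow_succ]; group
    rw [e]; exact this

theorem pow_conj_mem' {Q : Subgroup G} {g : G} (hg : ∀ q ∈ Q, g * q * g⁻¹ ∈ Q) (i : ℕ) :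
    ∀ q ∈ Q, g ^ i * q * (g ^ i)⁻¹ ∈ Q := by
  induction i with
  | zero => intro q hq; simpa using hq
  | succ n ih =>
    intro q hq
    have := hg _ (ih q hq)
    have e : g ^ (n + 1) * q * (g ^ (n + 1))⁻¹ = g * (g ^ n * q * (g ^ n)⁻¹) * g⁻¹ := by
      rw [pow_succ']; group
    rw [e]; exact this

/-- In a finite group the two forms of normalising coincide. -/
theorem inv_conj_mem [Finite G] {Q : Subgroup G} {g : G} (hg : ∀ q ∈ Q, g * q * g⁻¹ ∈ Q) :
    ∀ q ∈ Q, g⁻¹ * q * g ∈ Q := by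
  intro q hq
  have h := pow_conj_mem' hg (orderOf g - 1) q hq
  have e : g ^ (orderOf g - 1) = g⁻¹ := by
    have h1 : g ^ (orderOf g - 1) * g = 1 := by
      rw [← pow_succ, Nat.sub_add_cancel (orderOf_pos g), pow_orderOf_eq_one]
    exact eq_inv_of_mul_eq_one_left h1
  rw [e, inv_inv] at h
  exact h

variable {Ω : Type*} [MulAction G Ω]

/-- The function on `Ω` attached to the character `μ` on the orbit `Qω`. -/
noncomputable def fn (Q : Subgroup G) (μ : Q →* ℂˣ) (ω : Ω) (x : Ω) : ℂ :=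
  if h : ∃ q : Q, (q : G) • ω = x then ((μ h.choose : ℂˣ) : ℂ) else 0

theorem fn_smul {Q : Subgroup G} {μ : Q →* ℂˣ} {ω : Ω}
    (hω : ∀ q : Q, (q : G) • ω = ω → μ q = 1) (q : Q) :
    fn Q μ ω ((q : G) • ω) = ((μ q : ℂˣ) : ℂ) := by
  have h : ∃ q' : Q, (q' : G) • ω = (q : G) • ω := ⟨q, rfl⟩
  rw [fn, dif_pos h]
  have h2 := h.choose_spec
  have h3 : ((q⁻¹ * h.choose : Q) : G) • ω = ω := by
    rw [Subgroup.coe_mul, mul_smul, h2, ← mul_smul]
    simp
  have h4 := hω _ h3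
  rw [map_mul, map_inv] at h4
  have h5 : μ h.choose = μ q := by
    have := congrArg (fun z => μ q * z) h4
    simpa using this
  rw [h5]

theorem fn_zero {Q : Subgroup G} {μ : Q →* ℂˣ} {ω x : Ω} (h : ¬ ∃ q : Q, (q : G) • ω = x) :
    fn Q μ ω x = 0 := dif_neg h

theorem fn_eq {Q : Subgroup G} {μ : Q →* ℂˣ} {ω : Ω}
    (hω : ∀ q : Q, (q : G) • ω = ω → μ q = 1) (q : Q) (x : Ω) :
    fn Q μ ω ((q : G) • x) = ((μ q : ℂˣ) : ℂ) * fn Q μ ω x := by
  by_cases h : ∃ q' : Q, (q' : G) • ω = x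
  · obtain ⟨q', rfl⟩ := h
    rw [fn_smul hω q', ← mul_smul]
    have := fn_smul hω (q * q')
    rw [Subgroup.coe_mul] at this
    rw [this, map_mul, Units.val_mul]
  · rw [fn_zero h, mul_zero]
    apply fn_zero
    rintro ⟨q', e⟩
    apply h
    refine ⟨q⁻¹ * q', ?_⟩
    rw [Subgroup.coe_mul, mul_smul, e, ← mul_smul]
    simp

/-- Main computation: a point of the orbit `Qω` outside the zeros of the `ζ`-projection. -/
theorem core [Finite G] {Q : Subgroup G} {g : G} (hg : ∀ q ∈ Q, g * q * g⁻¹ ∈ Q)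
    (μ : Q →* ℂˣ) (ω : Ω) (hω : ∀ q : Q, (q : G) • ω = ω → μ q = 1)
    (hst : ∀ k : ℕ, FixC Q μ (g ^ k) → g ^ k = 1) :
    ∃ (F : Ω → ℂ) (q : Q), F ((q : G) • ω) ≠ 0 ∧ (∀ x, x ∉ Reg Ω g → F x = 0) ∧
      ∀ c : Q, (c : G) * g = g * c → ∀ x, F ((c : G) • x) = ((μ c : ℂˣ) : ℂ) * F x := by
  have hg' := inv_conj_mem hg
  have hn0 : orderOf g ≠ 0 := (orderOf_pos g).ne'
  set n := orderOf g with hn
  obtain ⟨ζ, hζ⟩ : ∃ ζ : ℂ, IsPrimitiveRoot ζ n := ⟨_, Complex.isPrimitiveRoot_exp n hn0⟩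
  let F : Ω → ℂ := fun x => ∑ i ∈ Finset.range n, ζ ^ i * fn Q μ ω ((g ^ i)⁻¹ • x)
  have hFg : ∀ x, F (g • x) = ζ * F x := by
    intro x
    have h1 : ∀ i, ζ ^ (i + 1) * fn Q μ ω ((g ^ (i + 1))⁻¹ • g • x) =
        ζ * (ζ ^ i * fn Q μ ω ((g ^ i)⁻¹ • x)) := by
      intro i
      have : (g ^ (i + 1))⁻¹ • g • x = (g ^ i)⁻¹ • x := by
        rw [← mul_smul]; congr 1; rw [pow_succ']; group
      rw [this, pow_succ]; ring
    have h2 : F (g • x) = ∑ i ∈ Finset.range n,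
        ζ ^ (i + 1) * fn Q μ ω ((g ^ (i + 1))⁻¹ • g • x) := by
      have e1 := Finset.sum_range_succ' (fun i => ζ ^ i * fn Q μ ω ((g ^ i)⁻¹ • g • x)) n
      have e2 := Finset.sum_range_succ (fun i => ζ ^ i * fn Q μ ω ((g ^ i)⁻¹ • g • x)) n
      rw [e2] at e1
      have e3 : ζ ^ n * fn Q μ ω ((g ^ n)⁻¹ • g • x) = ζ ^ 0 * fn Q μ ω ((g ^ 0)⁻¹ • g • x) := by
        rw [hζ.pow_eq_one, hn, pow_orderOf_eq_one]; simp
      rw [e3] at e1
      exact add_right_cancel e1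
    rw [h2]
    simp_rw [h1]
    rw [← Finset.mul_sum]
  have hFk : ∀ (k : ℕ) x, F (g ^ k • x) = ζ ^ k * F x := by
    intro k
    induction k with
    | zero => intro x; simp
    | succ k ih => intro x; rw [pow_succ', mul_smul, hFg, ih, pow_succ']; ring
  have hFQ : ∀ (i : ℕ) (q : Q) (x : Ω), fn Q μ ω ((g ^ i)⁻¹ • (q : G) • x) =
      ((conjC Q μ (g ^ i) (pow_conj_mem hg' i) q : ℂˣ) : ℂ) * fn Q μ ω ((g ^ i)⁻¹ • x) := by
    intro i q x
    have e : (g ^ i)⁻¹ • (q : G) • x =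
        ((⟨(g ^ i)⁻¹ * q * g ^ i, pow_conj_mem hg' i _ q.2⟩ : Q) : G) • ((g ^ i)⁻¹ • x) := by
      rw [← mul_smul, ← mul_smul]; congr 1; simp [mul_assoc]
    rw [e, fn_eq hω]
    rfl
  refine ⟨F, ?_⟩
  have hex : ∃ q : Q, F ((q : G) • ω) ≠ 0 := by
    by_contra hcon
    push Not at hcon
    have : Fintype Q := Fintype.ofFinite Q
    have h0 : ∑ q : Q, (((μ q)⁻¹ : ℂˣ) : ℂ) * F ((q : G) • ω) = 0 :=
      Finset.sum_eq_zero fun q _ => by rw [hcon q, mul_zero]
    have h1 : ∑ q : Q, (((μ q)⁻¹ : ℂˣ) : ℂ) * F ((q : G) • ω) =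
        ∑ i ∈ Finset.range n, ζ ^ i * fn Q μ ω ((g ^ i)⁻¹ • ω) *
          ∑ q : Q, ((((μ q)⁻¹ * conjC Q μ (g ^ i) (pow_conj_mem hg' i) q : ℂˣ)) : ℂ) := by
      simp only [F, Finset.mul_sum]
      rw [Finset.sum_comm]
      refine Finset.sum_congr rfl fun i _ => Finset.sum_congr rfl fun q _ => ?_
      rw [hFQ, Units.val_mul]
      ring
    have h2 : ∀ i ∈ Finset.range n, i ≠ 0 →
        ζ ^ i * fn Q μ ω ((g ^ i)⁻¹ • ω) *
          ∑ q : Q, ((((μ q)⁻¹ * conjC Q μ (g ^ i) (pow_conj_mem hg' i) q : ℂˣ)) : ℂ) = 0 := by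
      intro i hi hi0
      have hne : g ^ i ≠ 1 := by
        intro h
        have := Nat.le_of_dvd (Nat.pos_of_ne_zero hi0) (orderOf_dvd_of_pow_eq_one h)
        exact absurd (Finset.mem_range.1 hi) (by omega)
      let ν : Q →* ℂ := (Units.coeHom ℂ).comp (μ⁻¹ * conjC Q μ (g ^ i) (pow_conj_mem hg' i))
      have hν : ν ≠ 1 := by
        intro h
        apply hne
        apply hst
        intro q q' e
        have h3 := DFunLike.congr_fun h q'
        have h4 : (μ q')⁻¹ * conjC Q μ (g ^ i) (pow_conj_mem hg' i) q' = 1 := by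
          apply Units.ext
          simpa [ν] using h3
        have h5 : conjC Q μ (g ^ i) (pow_conj_mem hg' i) q' = μ q' := by
          have := congrArg (fun z => μ q' * z) h4
          simpa using this
        rw [← h5]
        change μ _ = μ q
        congr 1
        apply Subtype.ext
        change (g ^ i)⁻¹ * (q' : G) * g ^ i = q
        rw [e]; group
      have h6 := sum_hom_units_eq_zero (G := Q) (R := ℂ) ν hν
      have h7 : ∑ q : Q, ((((μ q)⁻¹ * conjC Q μ (g ^ i) (pow_conj_mem hg' i) q : ℂˣ)) : ℂ) = 0 := by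
        rw [← h6]
        rfl
      rw [h7, mul_zero]
    rw [h1, Finset.sum_eq_single_of_mem 0 (Finset.mem_range.2 (Nat.pos_of_ne_zero hn0)) h2] at h0
    have h8 : fn Q μ ω ((g ^ 0)⁻¹ • ω) = 1 := by
      have := fn_smul hω (1 : Q)
      simpa using this
    have h9 : ∀ q : Q, ((((μ q)⁻¹ * conjC Q μ (g ^ 0) (pow_conj_mem hg' 0) q : ℂˣ)) : ℂ) = 1 := by
      intro q
      have : conjC Q μ (g ^ 0) (pow_conj_mem hg' 0) q = μ q := by
        change μ _ = μ q
        congr 1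
        apply Subtype.ext
        change (g ^ 0)⁻¹ * (q : G) * g ^ 0 = q
        simp
      rw [this]; simp
    rw [h8] at h0
    simp only [h9] at h0
    simp at h0
  obtain ⟨q, hq⟩ := hex
  refine ⟨q, hq, ?_, ?_⟩
  · intro x hx
    have hx' : ¬ ∀ k : ℕ, g ^ k • x = x → g ^ k = 1 := hx
    push Not at hx'
    obtain ⟨k, hk, hk1⟩ := hx'
    have h1 := hFk k x
    rw [hk] at h1
    have h2 : ζ ^ k ≠ 1 := by
      intro h
      apply hk1
      have := hζ.dvd_of_pow_eq_one k h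
      rw [hn] at this
      exact orderOf_dvd_iff_pow_eq_one.1 this
    have h3 : (ζ ^ k - 1) * F x = 0 := by rw [sub_mul, ← h1]; ring
    rcases mul_eq_zero.1 h3 with h | h
    · exact absurd (sub_eq_zero.1 h) h2
    · exact h
  · intro c hc x
    have hcomm : ∀ i : ℕ, (g ^ i)⁻¹ * (c : G) * g ^ i = c := by
      intro i
      have : Commute (c : G) (g ^ i) := Commute.pow_right hc i
      rw [mul_assoc, this.eq]; group
    simp only [F, Finset.mul_sum]
    refine Finset.sum_congr rfl fun i _ => ?_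
    rw [hFQ]
    have : conjC Q μ (g ^ i) (pow_conj_mem hg' i) c = μ c := by
      change μ _ = μ c
      congr 1
      exact Subtype.ext (hcomm i)
    rw [this]; ring

/-- **Character criterion.**  If `μ` is a linear character of the `g`-invariant subgroup `Q` with
`Q_ω ≤ ker μ` and no nontrivial power of `g` fixes `μ`, then `g` has a regular point in `Qω`. -/
theorem exists_regular [Finite G] {Q : Subgroup G} {g : G} (hg : ∀ q ∈ Q, g * q * g⁻¹ ∈ Q)
    (μ : Q →* ℂˣ) (ω : Ω) (hω : ∀ q : Q, (q : G) • ω = ω → μ q = 1)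
    (hst : ∀ k : ℕ, FixC Q μ (g ^ k) → g ^ k = 1) :
    ∃ q : Q, (q : G) • ω ∈ Reg Ω g := by
  obtain ⟨F, q, hq, h0, -⟩ := core hg μ ω hω hst
  exact ⟨q, by by_contra h; exact hq (h0 _ h)⟩

/-- **Commuting criterion.**  If moreover `c ∈ Q` commutes with `g` and fixes all regular points
of `g`, then `μ c = 1`. -/
theorem eq_one_of_fix [Finite G] {Q : Subgroup G} {g : G} (hg : ∀ q ∈ Q, g * q * g⁻¹ ∈ Q)
    (μ : Q →* ℂˣ) (ω : Ω) (hω : ∀ q : Q, (q : G) • ω = ω → μ q = 1)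
    (hst : ∀ k : ℕ, FixC Q μ (g ^ k) → g ^ k = 1)
    (c : Q) (hc : (c : G) * g = g * c) (hfix : ∀ x ∈ Reg Ω g, (c : G) • x = x) : μ c = 1 := by
  obtain ⟨F, q, hq, h0, h1⟩ := core hg μ ω hω hst
  have hr : (q : G) • ω ∈ Reg Ω g := by by_contra h; exact hq (h0 _ h)
  have h2 := h1 c hc ((q : G) • ω)
  rw [hfix _ hr] at h2
  apply Units.ext
  have h3 : (((μ c : ℂˣ) : ℂ) - 1) * F ((q : G) • ω) = 0 := by rw [sub_mul, ← h2]; ring
  rcases mul_eq_zero.1 h3 with h | h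
  · simpa using sub_eq_zero.1 h
  · exact absurd h hq

/-- The element of order `r` of `⟨g⟩` is a power of every power of `g` of order divisible by `r`. -/
theorem exists_pow_eq_of_prime [Finite G] {g : G} {k r : ℕ} (hr : r.Prime)
    (hd : r ∣ orderOf (g ^ k)) : ∃ m : ℕ, (g ^ k) ^ m = g ^ (orderOf g / r) := by
  have hn := orderOf_pos g
  have hdn : r ∣ orderOf g := hd.trans (orderOf_pow_dvd k)
  obtain ⟨a, ha⟩ := hdn
  have ha0 : 0 < a := Nat.pos_of_ne_zero (by rintro rfl; rw [Nat.mul_zero] at ha; omega)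
  have hdiv : orderOf g / r = a := by rw [ha]; exact Nat.mul_div_cancel_left a hr.pos
  -- `gcd (n, k) ∣ a`
  have h1 : orderOf (g ^ k) = orderOf g / (orderOf g).gcd k := orderOf_pow g
  have h2 : (orderOf g).gcd k ∣ a := by
    have h3 : (orderOf g).gcd k ∣ orderOf g := Nat.gcd_dvd_left _ _
    obtain ⟨b, hb⟩ := h3
    have hg0 : 0 < (orderOf g).gcd k := Nat.gcd_pos_of_pos_left _ hn
    have h4 : orderOf (g ^ k) = b := by
      rw [h1]
      exact Nat.div_eq_of_eq_mul_right hg0 hb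
    rw [h4] at hd
    obtain ⟨c, hc⟩ := hd
    refine ⟨c, ?_⟩
    have h5 : r * a = r * ((orderOf g).gcd k * c) := by
      rw [← ha]
      calc orderOf g = (orderOf g).gcd k * b := hb
        _ = r * ((orderOf g).gcd k * c) := by rw [hc]; ring
    exact Nat.eq_of_mul_eq_mul_left hr.pos h5
  obtain ⟨c, hc⟩ := h2
  -- Bezout
  have h6 : ∃ m : ℕ, (g ^ k) ^ m = g ^ ((orderOf g).gcd k) := by
    have h7 : g ^ ((orderOf g).gcd k) ∈ Subgroup.zpowers (g ^ k) := by
      rw [Subgroup.mem_zpowers_iff]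
      refine ⟨Nat.gcdB (orderOf g) k, ?_⟩
      have h8 := Nat.gcd_eq_gcd_ab (orderOf g) k
      have h9 : g ^ (((orderOf g).gcd k : ℕ) : ℤ) =
          g ^ ((orderOf g : ℤ) * Nat.gcdA (orderOf g) k) * g ^ ((k : ℤ) * Nat.gcdB (orderOf g) k) := by
        rw [← zpow_add, h8]
      rw [zpow_mul g (orderOf g : ℤ), zpow_natCast g (orderOf g), pow_orderOf_eq_one, one_zpow,
        one_mul, zpow_mul, zpow_natCast g k, zpow_natCast] at h9
      exact h9.symm
    rw [← mem_powers_iff_mem_zpowers] at h7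
    obtain ⟨m, hm⟩ := h7
    exact ⟨m, hm⟩
  obtain ⟨m, hm⟩ := h6
  refine ⟨m * c, ?_⟩
  rw [hdiv, pow_mul, hm, ← pow_mul]
  congr 1
  exact hc.symm


/-! ## Regular points, powers, minimal covers -/

theorem mem_reg_iff_prime [Finite G] (g : G) (ω : Ω) :
    ω ∈ Reg Ω g ↔ ∀ r : ℕ, r.Prime → r ∣ orderOf g → g ^ (orderOf g / r) • ω ≠ ω := by
  constructor
  · intro h r hr hd e
    have h1 := h _ e
    have h2 := orderOf_dvd_of_pow_eq_one h1
    have h3 : 0 < orderOf g / r := Nat.div_pos (Nat.le_of_dvd (orderOf_pos g) hd) hr.pos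
    have h4 := Nat.le_of_dvd h3 h2
    have h5 := Nat.div_lt_self (orderOf_pos g) hr.one_lt
    omega
  · intro h k hk
    by_contra hne
    obtain ⟨r, hr, hd⟩ := Nat.exists_prime_and_dvd
      (fun e : orderOf (g ^ k) = 1 => hne (orderOf_eq_one_iff.1 e))
    have hdn : r ∣ orderOf g := hd.trans (orderOf_pow_dvd k)
    apply h r hr hdn
    obtain ⟨m, hm⟩ := exists_pow_eq_of_prime hr hd
    rw [← hm]
    clear hm
    induction m with
    | zero => simp
    | succ m ih => rw [pow_succ, mul_smul, hk, ih]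

theorem stabilizer_eq_bot_iff [Finite G] (g : G) (ω : Ω) :
    MulAction.stabilizer (Subgroup.zpowers g) ω = ⊥ ↔ ω ∈ Reg Ω g := by
  rw [Subgroup.eq_bot_iff_forall]
  constructor
  · intro h k hk
    have := h ⟨g ^ k, Subgroup.npow_mem_zpowers g k⟩ hk
    exact congrArg Subtype.val this
  · rintro h ⟨x, hx⟩ hxω
    rw [← mem_powers_iff_mem_zpowers] at hx
    obtain ⟨k, rfl⟩ := hx
    exact Subtype.ext (h k hxω)

/-- It is enough to test the stabiliser of `μ` on elements of prime order. -/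
theorem fixC_of_prime [Finite G] {Q : Subgroup G} {g : G} (hg : ∀ q ∈ Q, g * q * g⁻¹ ∈ Q)
    {μ : Q →* ℂˣ}
    (h : ∀ r : ℕ, r.Prime → r ∣ orderOf g → ¬ FixC Q μ (g ^ (orderOf g / r))) :
    ∀ k : ℕ, FixC Q μ (g ^ k) → g ^ k = 1 := by
  intro k hk
  by_contra hne
  obtain ⟨r, hr, hd⟩ := Nat.exists_prime_and_dvd
    (fun e : orderOf (g ^ k) = 1 => hne (orderOf_eq_one_iff.1 e))
  have hdn : r ∣ orderOf g := hd.trans (orderOf_pow_dvd k)
  obtain ⟨m, hm⟩ := exists_pow_eq_of_prime hr hd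
  apply h r hr hdn
  rw [← hm]
  exact fixC_pow (pow_conj_mem' hg k) hk m

/-- The set of occurring characters is invariant under the normaliser. -/
theorem occ_conjC {Q : Subgroup G} {μ : Q →* ℂˣ} (h : Occ Ω Q μ) (n : G)
    (hn : ∀ q ∈ Q, n⁻¹ * q * n ∈ Q) : Occ Ω Q (conjC Q μ n hn) := by
  obtain ⟨ω, hω⟩ := h
  refine ⟨n • ω, fun q hq => ?_⟩
  apply hω ⟨n⁻¹ * q * n, hn _ q.2⟩
  change (n⁻¹ * (q : G) * n) • ω = ω
  rw [mul_smul, mul_smul, hq, ← mul_smul]
  simp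

/-- A `p`-subgroup which moves a point has an occurring character of order `p`. -/
theorem exists_occ [Finite G] {p : ℕ} [hp : Fact p.Prime] {Q : Subgroup G} (hQ : IsPGroup p Q)
    {ω : Ω} (hmove : ∃ q ∈ Q, q • ω ≠ ω) :
    ∃ μ : Q →* ℂˣ, μ ≠ 1 ∧ (∀ q, μ q ^ p = 1) ∧ ∀ q : Q, (q : G) • ω = ω → μ q = 1 := by
  classical
  let S : Subgroup Q := MulAction.stabilizer Q ω
  have hS : S ≠ ⊤ := by
    intro h
    obtain ⟨q, hq, hne⟩ := hmove
    have : (⟨q, hq⟩ : Q) ∈ S := by rw [h]; trivial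
    exact hne this
  obtain ⟨M, hM, hSM⟩ := (eq_top_or_exists_le_coatom S).resolve_left hS
  have hN : M.Normal := Lib.FrattiniBasic.normal_of_isCoatom hQ hM
  have hcomm := Lib.FrattiniBasic.commutator_le_of_isCoatom hQ hM
  obtain ⟨x, hx⟩ : ∃ x, x ∉ M := by
    by_contra h
    push Not at h
    exact hM.1 (eq_top_iff.2 fun x _ => h x)
  let cg : CommGroup (Q ⧸ M) :=
    { (inferInstance : Group (Q ⧸ M)) with
      mul_comm := fun a b => by
        induction a using QuotientGroup.induction_on with | _ a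
        induction b using QuotientGroup.induction_on with | _ b
        rw [← QuotientGroup.mk_mul, ← QuotientGroup.mk_mul, QuotientGroup.eq]
        apply hcomm
        have : (a * b)⁻¹ * (b * a) = b⁻¹ * a⁻¹ * b⁻¹⁻¹ * a⁻¹⁻¹ := by group
        rw [this, ← commutatorElement_def]
        exact Subgroup.commutator_mem_commutator (Subgroup.mem_top b⁻¹) (Subgroup.mem_top a⁻¹) }
  have hne : (QuotientGroup.mk x : Q ⧸ M) ≠ 1 := by
    rw [Ne, QuotientGroup.eq_one_iff]; exact hx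
  obtain ⟨φ, hφ⟩ := CommGroup.exists_apply_ne_one_of_hasEnoughRootsOfUnity (Q ⧸ M) ℂ hne
  refine ⟨φ.comp (QuotientGroup.mk' M), ?_, ?_, ?_⟩
  · intro h
    apply hφ
    exact DFunLike.congr_fun h x
  · intro q
    rw [← map_pow]
    change φ (QuotientGroup.mk (q ^ p)) = 1
    have h1 : (QuotientGroup.mk (q ^ p) : Q ⧸ M) = 1 :=
      (QuotientGroup.eq_one_iff _).2 (Lib.FrattiniBasic.pow_mem_of_isCoatom hQ hM q)
    rw [h1, map_one]
  · intro q hq
    change φ (QuotientGroup.mk q) = 1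
    have h1 : (QuotientGroup.mk q : Q ⧸ M) = 1 := (QuotientGroup.eq_one_iff _).2 (hSM hq)
    rw [h1, map_one]

/-- **Orbit form of the character criterion.**  `g` normalises the `p`-subgroup `Q` which moves
some point; every linear character of order `p` of `Q` is conjugate in the normaliser of `Q` to one
fixed by no element of prime order of `⟨g⟩`.  Then `g` has a regular point. -/
theorem reg_nonempty [Finite G] {p : ℕ} [hp : Fact p.Prime] {Q : Subgroup G} (hQ : IsPGroup p Q)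
    {g : G} (hg : ∀ q ∈ Q, g * q * g⁻¹ ∈ Q) (hmove : ∃ (ω : Ω), ∃ q ∈ Q, q • ω ≠ ω)
    (horb : ∀ μ : Q →* ℂˣ, μ ≠ 1 → (∀ q, μ q ^ p = 1) →
      ∃ (n : G) (hn : ∀ q ∈ Q, n⁻¹ * q * n ∈ Q), ∀ r : ℕ, r.Prime → r ∣ orderOf g →
        ¬ FixC Q (conjC Q μ n hn) (g ^ (orderOf g / r))) :
    (Reg Ω g).Nonempty := by
  obtain ⟨ω, hω⟩ := hmove
  obtain ⟨μ, hμ1, hμp, hocc⟩ := exists_occ hQ hω
  obtain ⟨n, hn, hst⟩ := horb μ hμ1 hμp
  obtain ⟨ω', hω'⟩ := occ_conjC ⟨ω, hocc⟩ n hn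
  obtain ⟨q, hq⟩ := exists_regular hg _ ω' hω' (fixC_of_prime hg hst)
  exact ⟨_, hq⟩

/-- **Minimal covers.**  If `g` has no regular point, then some power `g'` of `g` of squarefree
order has no regular point while every power of `g'` generating a proper subgroup has one; for a
prime `r` dividing the order, the `r`-part `x` of `g'` fixes all regular points of the `r'`-part
`h`. -/
theorem exists_minimal [Finite G] (g : G) (hreg : Reg Ω g = ∅) :
    ∃ g' ∈ Subgroup.zpowers g, Reg Ω g' = ∅ ∧ Squarefree (orderOf g') ∧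
      ∀ r : ℕ, r.Prime → r ∣ orderOf g' → (Reg Ω (g' ^ r)).Nonempty ∧
        ∀ ω ∈ Reg Ω (g' ^ r), g' ^ (orderOf g' / r) • ω = ω := by
  classical
  have hex : ∃ n : ℕ, ∃ g' ∈ Subgroup.zpowers g, Reg Ω g' = ∅ ∧ orderOf g' = n :=
    ⟨orderOf g, g, Subgroup.mem_zpowers g, hreg, rfl⟩
  obtain ⟨g', hg', hr', hn⟩ := Nat.find_spec hex
  have hmin : ∀ k : ℕ, orderOf (g' ^ k) < orderOf g' → (Reg Ω (g' ^ k)).Nonempty := by
    intro k hk
    by_contra hcon
    rw [Set.not_nonempty_iff_eq_empty] at hcon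
    rw [hn] at hk
    exact Nat.find_min hex hk ⟨g' ^ k, Subgroup.pow_mem _ hg' k, hcon, rfl⟩
  have hord : ∀ r : ℕ, r.Prime → r ∣ orderOf g' → orderOf (g' ^ r) = orderOf g' / r := by
    intro r hr hd
    rw [orderOf_pow' g' hr.ne_zero, Nat.gcd_eq_right hd]
  have hlt : ∀ r : ℕ, r.Prime → r ∣ orderOf g' → orderOf (g' ^ r) < orderOf g' := by
    intro r hr hd
    rw [hord r hr hd]
    exact Nat.div_lt_self (orderOf_pos g') hr.one_lt
  -- points regular for `g' ^ r` are fixed by the element of order `r`, and `r` is prime to the order of `g' ^ r`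
  have hkey : ∀ r : ℕ, r.Prime → r ∣ orderOf g' → ∀ ω ∈ Reg Ω (g' ^ r),
      g' ^ (orderOf g' / r) • ω = ω := by
    intro r hr hd ω hω
    have hno : ω ∉ Reg Ω g' := by rw [hr']; simp
    rw [mem_reg_iff_prime] at hno
    push Not at hno
    obtain ⟨s, hs, hsd, hsω⟩ := hno
    by_cases hsr : s = r
    · rw [← hsr]; exact hsω
    · exfalso
      have h1 := (mem_reg_iff_prime (g' ^ r) ω).1 hω s hs
      have h2 : s ∣ orderOf (g' ^ r) := by
        rw [hord r hr hd]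
        obtain ⟨a, ha⟩ := hd
        rw [ha, Nat.mul_div_cancel_left a hr.pos]
        rw [ha] at hsd
        exact (hs.dvd_mul.1 hsd).resolve_left fun h => hsr ((Nat.prime_dvd_prime_iff_eq hs hr).1 h)
      apply h1 h2
      have h3 : (g' ^ r) ^ (orderOf (g' ^ r) / s) = g' ^ (orderOf g' / s) := by
        rw [← pow_mul]
        congr 1
        rw [hord r hr hd]
        obtain ⟨a, ha⟩ := hd
        rw [ha, Nat.mul_div_cancel_left a hr.pos]
        rw [hord r hr ⟨a, ha⟩, ha, Nat.mul_div_cancel_left a hr.pos] at h2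
        rw [Nat.mul_div_assoc r h2]
      rw [h3]
      exact hsω
  refine ⟨g', hg', hr', ?_, fun r hr hd => ⟨hmin r (hlt r hr hd), hkey r hr hd⟩⟩
  rw [Nat.squarefree_iff_prime_squarefree]
  rintro r hr hrr
  have hd : r ∣ orderOf g' := (dvd_mul_right r r).trans hrr
  obtain ⟨ω, hω⟩ := hmin r (hlt r hr hd)
  have h1 := hkey r hr hd ω hω
  have h2 : r ∣ orderOf (g' ^ r) := by
    rw [hord r hr hd]
    obtain ⟨b, hb⟩ := hrr
    rw [hb, mul_assoc, Nat.mul_div_cancel_left _ hr.pos]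
    exact dvd_mul_right r b
  apply (mem_reg_iff_prime (g' ^ r) ω).1 hω r hr h2
  obtain ⟨m, hm⟩ := exists_pow_eq_of_prime hr h2
  -- both are the element of order `r`
  have h3 : (g' ^ r) ^ (orderOf (g' ^ r) / r) = g' ^ (orderOf g' / r) := by
    rw [← pow_mul, hord r hr hd]
    congr 1
    rw [hord r hr hd] at h2
    exact Nat.mul_div_cancel' h2
  rw [h3]
  exact h1

/-- The regular points of `h` are permuted by the centraliser of `h`. -/
theorem smul_mem_reg {h c : G} (hc : c * h = h * c) {ω : Ω} (hω : ω ∈ Reg Ω h) :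
    c • ω ∈ Reg Ω h := by
  intro k hk
  apply hω k
  have hcomm : h ^ k * c = c * h ^ k := ((show Commute c h from hc).pow_right k).eq.symm
  rw [← mul_smul, hcomm, mul_smul] at hk
  exact smul_left_cancel c hk

/-- If `x` fixes all regular points of `h`, so does every conjugate of `x` under `C_G(h)`, hence
the group generated by them. -/
theorem fix_reg_closure {h x : G} (hx : ∀ ω ∈ Reg Ω h, x • ω = ω) {y : G}
    (hy : y ∈ Subgroup.closure {y : G | ∃ c : G, c * h = h * c ∧ y = c * x * c⁻¹}) :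
    ∀ ω ∈ Reg Ω h, y • ω = ω := by
  induction hy using Subgroup.closure_induction with
  | mem y hy =>
    obtain ⟨c, hc, rfl⟩ := hy
    intro ω hω
    have hc' : c⁻¹ * h = h * c⁻¹ := ((show Commute c h from hc).inv_left).eq
    have h1 := hx _ (smul_mem_reg hc' hω)
    rw [mul_smul, mul_smul, h1, ← mul_smul]
    simp
  | one => intro ω _; simp
  | mul a b _ _ ha hb => intro ω hω; rw [mul_smul, hb ω hω, ha ω hω]
  | inv a _ ha =>
    intro ω hω
    have := ha ω hω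
    conv_lhs => rw [← this]
    rw [← mul_smul]; simp

/-- **Commuting criterion, orbit form.**  `h` normalises the `p`-subgroup `Q` which moves some
point; `K` is a set of elements fixing all regular points of `h`.  If every linear character of
order `p` of `Q` is conjugate in the normaliser of `Q` to a character `μ` which no element of prime
order of `⟨h⟩` fixes and with `μ c ≠ 1` for some `c ∈ Q ∩ K` commuting with `h`: contradiction. -/
theorem comm_criterion [Finite G] {p : ℕ} [hp : Fact p.Prime] {Q : Subgroup G} (hQ : IsPGroup p Q)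
    {h : G} (hg : ∀ q ∈ Q, h * q * h⁻¹ ∈ Q) (hmove : ∃ (ω : Ω), ∃ q ∈ Q, q • ω ≠ ω)
    (K : Set G) (hK : ∀ c ∈ K, ∀ ω ∈ Reg Ω h, c • ω = ω)
    (horb : ∀ μ : Q →* ℂˣ, μ ≠ 1 → (∀ q, μ q ^ p = 1) →
      ∃ (n : G) (hn : ∀ q ∈ Q, n⁻¹ * q * n ∈ Q), (∀ r : ℕ, r.Prime → r ∣ orderOf h →
        ¬ FixC Q (conjC Q μ n hn) (h ^ (orderOf h / r))) ∧
        ∃ c : Q, (c : G) ∈ K ∧ (c : G) * h = h * c ∧ conjC Q μ n hn c ≠ 1) : False := by
  obtain ⟨ω, hω⟩ := hmove
  obtain ⟨μ, hμ1, hμp, hocc⟩ := exists_occ hQ hω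
  obtain ⟨n, hn, hst, c, hcK, hch, hcμ⟩ := horb μ hμ1 hμp
  obtain ⟨ω', hω'⟩ := occ_conjC ⟨ω, hocc⟩ n hn
  exact hcμ (eq_one_of_fix hg _ ω' hω' (fixC_of_prime hg hst) c hch (hK c hcK))

end Cfsg.Agent.H359.RC
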