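import Cfsg.Agent.H106.RC.Red
import Cfsg.Agent.H390.RC.Exc
import Cfsg.Agent.H916.RC.ExcA6

/-!
# S3510: the exceptional groups `A5`, `A6`, `A8`
-/

set_option autoImplicit false

namespace Cfsg.Agent.H359.RC.ExcAll

/-- **The statement for `A5`, `A6`, `A8`** -/
theorem excStmt.{u, v} : Cfsg.Agent.H106.RC.ExcStmt.{u, v} := by
  intro G _ _ Ω _ _ _ T _ hE hC hprim g hg
  rcases hE with h | h | h
  · obtain ⟨e⟩ := h
    exact Or.inl ⟨⟨e⟩, H390.RC.exc_five T e hC hprim g hg⟩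
  · exact Or.inr (Or.inl ⟨h, H916.RC.exc_A6 T h hC hprim g hg⟩)
  · obtain ⟨e⟩ := h
    exact Or.inr (Or.inr ⟨⟨e⟩, H390.RC.exc_eight T e hC hprim g hg⟩)

end Cfsg.Agent.H359.RC.ExcAll
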